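import Cfsg.Agent.AltCent.Fixed
import Cfsg.Agent.AltCent.TwoSt.Data
import Cfsg.Agent.AltCent.TwoSt.Reps
import Cfsg.Agent.AltCent.TwoSt.Terms0
import Cfsg.Agent.AltCent.TwoSt.Terms1

/-! # TwoSt: conclusion (generated certificate data) -/

set_option autoImplicit false
set_option maxRecDepth 100000
set_option maxHeartbeats 4000000

namespace CfsgLib.AltCent.TwoSt

def terms : List Term := terms0 ++ terms1

theorem sum_ok : eqMod 2 (termPairs 2 bases T B terms) [(0, 1)] [(0, 1), (1, 1), (2, 1), (3, 1), (4, 1), (5, 2), (6, 1), (7, 1), (8, 1), (9, 1), (10, 1), (12, 1), (13, 1), (14, 1), (16, 1), (17, 2), (19, 1), (20, 1), (21, 1), (22, 1), (23, 1), (24, 2), (25, 1), (27, 3), (28, 1), (29, 3), (30, 1), (31, 1), (32, 1), (33, 2), (34, 1), (35, 1), (36, 1), (37, 1), (38, 1), (40, 1), (41, 1), (42, 1), (45, 1), (46, 1), (47, 2), (48, 1), (49, 2), (50, 1), (51, 1), (52, 1), (54, 1), (56, 1), (57, 2), (58, 2), (59, 1), (61, 1), (62, 2), (63, 2), (64, 1), (65, 1), (66, 1), (68, 1), (69, 1), (70, 1), (71, 2), (72,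 2), (73, 1), (74, 3), (77, 1), (78, 1), (81, 1), (82, 1), (83, 2), (85, 1), (86, 1), (87, 1), (88, 1), (89, 1), (90, 1), (91, 2), (92, 1), (93, 1), (95, 2), (96, 1), (98, 1), (99, 1), (101, 1), (102, 1), (103, 2), (104, 1), (105, 1), (106, 1), (107, 1), (108, 1), (109, 1), (110, 2), (113, 1), (114, 1), (115, 2), (116, 1), (117, 1), (118, 1), (119, 2), (120, 1), (121, 1), (122, 1), (123, 1), (126, 1), (127, 1), (128, 1), (129, 1), (130, 1), (131, 1), (132, 2), (133, 1), (134, 1), (135, 1), (136, 1), (137, 2), (138, 1), (139, 1), (140, 2), (141, 2), (142, 1), (143, 1), (144, 2), (145, 2), (146, 1), (147, 2), (148, 1), (149, 1), (150, 1), (152, 2), (153, 1), (154, 1), (155, 2), (156, 1), (157, 1), (158, 1), (159, 1), (163, 1), (164, 1), (165, 1), (166, 1), (167, 2), (168, 1), (169, 1), (171, 1), (172, 1), (173, 3), (174, 1), (175, 1), (177, 1), (178, 1), (179, 1), (180, 1), (181, 1), (182, 1), (185, 1), (186, 1), (187, 1), (188, 2), (189, 1), (190, 1), (191, 1), (192, 1), (195, 1), (196, 1), (197, 1), (198,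 1), (200, 2), (202, 1), (203, 1), (205, 1), (206, 1), (207, 1), (208, 1), (209, 1), (211, 1), (212, 1), (213, 1), (214, 1), (215, 1), (216, 1), (217, 1), (218, 2), (221, 1), (222, 1), (226, 1), (227, 1), (228, 1), (229, 1), (231, 2), (232, 1), (233, 2), (234, 2), (235, 1), (236, 1), (237, 1), (238, 1), (239, 1), (241, 1), (242, 1), (243, 1), (244, 1), (245, 1), (246, 1), (248, 1), (249, 2), (250, 1), (251, 1), (252, 1), (253, 1), (254, 2), (255, 1), (257, 1), (258, 1), (260, 1), (261, 2), (262, 1), (263, 3), (264, 1), (265, 1), (266, 1), (268, 1), (270, 1), (271, 2), (272, 1), (273, 1), (274, 2), (275, 1), (276, 3), (277, 2), (278, 2), (279, 1), (280, 2), (281, 2), (282, 1), (283, 1), (284, 1), (285, 2), (286, 1), (287, 3), (288, 1), (289, 1), (290, 1), (291, 1), (292, 1), (293, 1), (294, 1), (295, 1), (296, 1), (297, 1), (298, 1), (299, 1), (300, 1), (301, 2), (302, 2), (303, 1), (304, 1), (305, 1), (306, 2), (307, 2), (308, 2), (309, 1), (310, 1), (311, 1), (312, 1), (313, 1), (314, 2)] [] = true := by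 decide +kernel

theorem terms_ok : termsOK 9 bases tR cR T B terms = true := (termsOK_append _ _ terms0_ok terms1_ok)

variable {V : Type*} [AddCommGroup V] [DistribMulAction (alternatingGroup (Fin 9)) V]

/-- The table acts by scalars as soon as its generators do. -/
theorem acts (hp : ∀ x : V, 2 • x = 0) (v : V)
    (hg : ∀ g ∈ gens, el 9 g.1 • v = g.2 • v) : Acts (n := 9) v B := by
  have z := zero_ok
  simp only [Bool.and_eq_true] at z
  refine acts_of_actsOK (by norm_num) hp v B gens (fun g hgm => ⟨?_, hg g hgm⟩) steps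
    (Nat.eq_of_beq_eq_true z.1.1) (Nat.eq_of_beq_eq_true z.1.2) steps_ok
  have hr := goodTab_of_repsOK genWords rfl gens_ok
  simp only [gens, List.mem_cons, List.not_mem_nil, or_false] at hgm
  rcases hgm with rfl | rfl | rfl | rfl | rfl
  · exact (show get 0x98321076549854763210987645320198765410329876542301 0 = 654820254465 by decide +kernel) ▸ hr 0 (by decide)
  · exact (show get 0x98321076549854763210987645320198765410329876542301 1 = 654820249650 by decide +kernel) ▸ hr 1 (by decide)
  · exact (show get 0x98321076549854763210987645320198765410329876542301 2 = 654819275265 by decide +kernel) ▸ hr 2 (by decide)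
  · exact (show get 0x98321076549854763210987645320198765410329876542301 3 = 654252061200 by decide +kernel) ▸ hr 3 (by decide)
  · exact (show get 0x98321076549854763210987645320198765410329876542301 4 = 653674968660 by decide +kernel) ▸ hr 4 (by decide)

/-- No nonzero vector satisfies the hypotheses. -/
theorem eq_zero (hp : ∀ x : V, 2 • x = 0) (hX : NoFix 9 V) (v : V)
    (hg : ∀ g ∈ gens, el 9 g.1 • v = g.2 • v) (h0 : bval (n := 9) v base0 = 0) (h1 : bval (n := 9) v base1 = 0) (h2 : bval (n := 9) v base2 = 0) : v = 0 := by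
  have hB := acts hp v hg
  have z := zero_ok
  have hR := reps_ok
  simp only [Bool.and_eq_true] at z hR
  have hb : ∀ b ∈ bases, GoodTab 9 b.tbl b.cnt ∧ bval (n := 9) v b = 0 := by
    intro b hb
    simp only [bases, List.mem_append, List.mem_cons, List.not_mem_nil, or_false] at hb
    rcases hb with ((rfl | rfl | rfl) | hb) | rfl
    · exact ⟨goodTab_of_repsOK baseWords0 rfl baseWords0_ok, h0⟩
    · exact ⟨goodTab_of_repsOK baseWords1 rfl baseWords1_ok, h1⟩
    · exact ⟨goodTab_of_repsOK baseWords2 rfl baseWords2_ok, h2⟩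
    · exact fixesOK_spec (by norm_num) hp hX hB fixes fixes_ok b hb
    · exact trivBase_spec (by norm_num) hp (by norm_num) v
  have hT : GoodTab 9 T.tbl T.cnt := by
    have hs := sub_ok
    simp only [subOK, Bool.and_eq_true, List.all_eq_true, List.mem_range, Nat.blt_eq] at hs
    intro k hk
    rw [Nat.eq_of_beq_eq_true (hs.2 k hk).1.1.2]
    exact hB.good _ (hs.2 k hk).1.1.1
  exact eq_zero_of_cert (by norm_num) hp hB sub_ok (by decide) (Nat.eq_of_beq_eq_true z.2)
    (termsOK_spec (by norm_num) hp hB hT tau_ok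
      (goodTab_of_repsOK rWords (Nat.eq_of_beq_eq_true hR.1) hR.2) (fun b h => (hb b h).1)
      (fun b h => (hb b h).2) terms terms_ok) sum_ok

end CfsgLib.AltCent.TwoSt
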